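import Cfsg.Agent.H2.Coprime
import Mathlib.GroupTheory.GroupAction.Quotient

/-! Miscellaneous facts: Jordan's lemma on conjugates of a proper subgroup. -/

set_option autoImplicit false

namespace Cfsg.Agent.H2

open Subgroup
open scoped commutatorElement Pointwise

variable {G : Type*} [Group G] [Finite G]

/-- The conjugates of a proper subgroup do not cover a finite group. -/
theorem exists_forall_conj_not_mem {M : Subgroup G} (hM : M ≠ ⊤) :
    ∃ g : G, ∀ x : G, x * g * x⁻¹ ∉ M := by
  classical
  by_contra h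
  push Not at h
  have := Fintype.ofFinite G
  have h1 := MulAction.sum_card_fixedBy_eq_card_orbits_mul_card_group G (G ⧸ M)
  have h2 : Fintype.card (Quotient (MulAction.orbitRel G (G ⧸ M))) = 1 := by
    rw [Fintype.card_eq_one_iff_nonempty_unique]
    exact (MulAction.pretransitive_iff_unique_quotient_of_nonempty G (G ⧸ M)).mp inferInstance
  rw [h2, one_mul, ← Finset.card_univ (α := G), Finset.card_eq_sum_ones] at h1
  refine (Finset.sum_lt_sum (fun g _ => ?_) ⟨1, Finset.mem_univ _, ?_⟩).ne' h1
  · obtain ⟨x, hx⟩ := h g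
    refine Fintype.card_pos_iff.mpr ⟨⟨(x⁻¹ : G), ?_⟩⟩
    rw [MulAction.mem_fixedBy, MulAction.Quotient.smul_mk, QuotientGroup.eq]
    simpa [mul_assoc] using inv_mem hx
  · rw [← Nat.card_eq_fintype_card, show MulAction.fixedBy (G ⧸ M) (1 : G) = Set.univ by
      ext; simp, Nat.card_univ, ← index_eq_card]
    exact one_lt_index_of_ne_top hM

end Cfsg.Agent.H2
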