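import Cfsg.Agent.H2.Coprime
import Cfsg.Agent.H2.Hall
import Cfsg.Agent.L.PSolv
import Cfsg.Agent.H1.Transfer

/-!
Groups whose maximal subgroups are p-nilpotent or of prime index.
-/

set_option autoImplicit false

namespace Cfsg.Agent.H2

open Subgroup
open scoped commutatorElement Pointwise

universe u

theorem commutator_le_centralizer_of_isCyclic {G : Type*} [Group G] (N : Subgroup G) [N.Normal]
    [IsCyclic N] : commutator G ≤ centralizer (N : Set G) := by
  refine commutator_le.mpr fun a _ b _ x hx => ?_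
  have h : MulAut.conjNormal (H := N) ⁅a, b⁆ = 1 := by
    rw [map_commutatorElement, commutatorElement_eq_one_iff_mul_comm]
    exact (IsCyclic.mulAutMulEquiv N).injective (by rw [map_mul, map_mul, mul_comm])
  exact (mul_inv_eq_iff_eq_mul.mp (congrArg (fun φ : MulAut N => (φ ⟨x, hx⟩ : G)) h)).symm

variable {G : Type u} [Group G] [Finite G] {p : ℕ} [hp : Fact p.Prime]

theorem frattini_le_pCore (hO : pPrimeCore p G = ⊥) : frattini G ≤ pCore p G :=
  (L.le_fitting frattini_nilpotent).trans_eq (L.fitting_eq_pCore hO)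

theorem pPrimeCore_quotient_frattini (hO : pPrimeCore p G = ⊥) :
    pPrimeCore p (G ⧸ frattini G) = ⊥ := by
  have hΦ : IsPGroup p (frattini G) := (L.pCore_isPGroup p).to_le (frattini_le_pCore hO)
  haveI := hΦ.isNilpotent
  set K := (pPrimeCore p (G ⧸ frattini G)).comap (QuotientGroup.mk' (frattini G))
  have h1 : frattini G ≤ K := L.le_comap_mk' _ _
  have h2 : ((frattini G).relIndex K).Coprime p := by
    rw [L.relIndex_comap_mk']; exact L.pPrimeCore_coprime p
  obtain ⟨k, hk⟩ := hΦ.exists_card_eq
  obtain ⟨B, hBK, -, h3, h4⟩ := exists_complement_inf (H := K) (N := frattini G)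
    le_normalizer_of_normal (by rw [inf_eq_left.mpr h1, hk]; exact h2.symm.pow_left k)
  rw [inf_eq_left.mpr h1] at h3
  have h5 : normalizer (B : Set G) = ⊤ := frattini_nongenerating (eq_top_iff.mpr fun x _ => by
    obtain ⟨c, hc, n, hn, rfl⟩ := exists_normalizer_mul (A := B) (N := frattini G) (x := x)
      le_normalizer_of_normal (by rw [h4, hk]; exact h2.pow_right k) (.inr inferInstance)
      fun a ha => h3 ▸ (inferInstance : K.Normal).conj_mem' a (hBK ha) x
    exact mul_mem_sup hc hn)
  haveI := normalizer_eq_top_iff.mp h5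
  have h6 : B = ⊥ := eq_bot_iff.mpr ((L.le_pPrimeCore (h4 ▸ h2)).trans_eq hO)
  rw [← card_eq_one, ← L.relIndex_comap_mk', ← h4, h6, card_bot]

theorem mem_pCore_of_commutator_mem_frattini (hG : IsPSolvable p G) (hO : pPrimeCore p G = ⊥)
    {g : G} (h : ∀ x ∈ pCore p G, ⁅x, g⁆ ∈ frattini G) : g ∈ pCore p G := by
  have hker : IsPGroup p (QuotientGroup.mk' (frattini G)).ker :=
    (L.pCore_isPGroup p).to_le ((QuotientGroup.ker_mk' _).trans_le (frattini_le_pCore hO))
  have h1 : (pCore p (G ⧸ frattini G)).comap (QuotientGroup.mk' _) = pCore p G :=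
    (L.pClass_ext p).comap_rad _ (QuotientGroup.mk'_surjective _) hker
  refine h1.le (L.centralizer_pCore_le (L.isPSolvable_quotient hG _)
    (pPrimeCore_quotient_frattini hO) fun y hy => ?_)
  obtain ⟨x, rfl⟩ := QuotientGroup.mk'_surjective _ y
  rw [← commutatorElement_eq_one_iff_mul_comm, ← map_commutatorElement]
  exact (QuotientGroup.eq_one_iff _).mpr (h x (h1.le hy))

theorem hasNormalPComplement_quotient_pCore (hG : IsPSolvable p G) (hO : pPrimeCore p G = ⊥)
    (hmax : ∀ M : Subgroup G, IsCoatom M → HasNormalPComplement p M ∨ M.index.Prime) :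
    HasNormalPComplement p (G ⧸ pCore p G) := by
  set R := pCore p G
  by_cases h : ∃ M : Subgroup G, IsCoatom M ∧ ¬ R ≤ M ∧ HasNormalPComplement p M
  · obtain ⟨M, hM, hRM, h⟩ := h
    refine H1.hasNormalPComplement_of_surjective ((QuotientGroup.mk' R).comp M.subtype)
      (fun y => ?_) h
    obtain ⟨x, rfl⟩ := QuotientGroup.mk'_surjective R y
    obtain ⟨m, hm, r, hr, rfl⟩ := mem_sup_of_normal_right.mp
      ((hM.2 _ (left_lt_sup.mpr hRM)).ge (mem_top x))
    exact ⟨⟨m, hm⟩, (QuotientGroup.mk_mul_of_mem m hr).symm⟩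
  push Not at h
  have h1 : commutator G ≤ R := fun g hg => mem_pCore_of_commutator_mem_frattini hG hO
    fun x hx => mem_frattini_iff.mpr fun M hM => by
      by_cases hRM : R ≤ M
      · exact hRM (commutator_le_left R ⊤ (commutator_mem_commutator hx (mem_top g)))
      have h2 := (hmax M hM).resolve_left (h M hM hRM)
      haveI := (L.pCore_isPGroup (G := G) p).isNilpotent
      obtain ⟨y, hy, hy'⟩ := SetLike.exists_of_lt (lt_inf_normalizer_of_nilpotent
        (inf_lt_left.mpr hRM : R ⊓ M < R))
      haveI : (R ⊓ M).Normal := normalizer_eq_top_iff.mp (hM.2 _ (lt_of_le_not_ge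
        (le_normalizer_inf le_normalizer_of_normal le_normalizer) fun h => hy' ⟨hy.1, h hy.2⟩))
      set π := QuotientGroup.mk' (R ⊓ M)
      haveI := (inferInstance : R.Normal).map π (QuotientGroup.mk'_surjective _)
      haveI := Fact.mk h2
      haveI : IsCyclic (R.map π) := isCyclic_of_prime_card (p := M.index) (by
        rw [← relIndex_ker, QuotientGroup.ker_mk', inf_relIndex_left, ← relIndex_top_right,
          ← hM.2 _ (right_lt_sup.mpr hRM)]
        refine Nat.eq_of_mul_eq_mul_left (Nat.card_pos (α := (R ⊓ M : Subgroup G))) ?_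
        refine Nat.eq_of_mul_eq_mul_left (Nat.card_pos (α := M)) ?_
        rw [inf_comm R, card_inf_mul_relIndex, ← card_sup_mul_card_inf le_normalizer_of_normal,
          mul_left_comm, card_mul_relIndex le_sup_right, mul_comm, sup_comm])
      have h3 := commutator_le_centralizer_of_isCyclic (R.map π) (commutator_mono le_top le_top
        ((map_commutator_eq G π).le (mem_map_of_mem π hg))) _ (mem_map_of_mem π hx)
      rw [← commutatorElement_eq_one_iff_mul_comm, ← map_commutatorElement] at h3
      exact ((QuotientGroup.eq_one_iff _).mp h3).2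
  haveI : Group.IsNilpotent (G ⧸ R) := L.isNilpotent_of_isMulCommutative
    (Subgroup.Normal.quotient_commutative_iff_commutator_le.mpr h1)
  exact H1.hasNormalPComplement_of_isNilpotent

theorem exists_chain_of_maximal (hG : IsPSolvable p G)
    (hmax : ∀ M : Subgroup G, IsCoatom M → (∃ K : Subgroup M, K.Normal ∧ ¬ p ∣ Nat.card K ∧
      ∃ k : ℕ, K.index = p ^ k) ∨ M.index.Prime) :
    ∃ A B C : Subgroup G, A.Normal ∧ B.Normal ∧ C.Normal ∧ A ≤ B ∧ B ≤ C ∧ ¬ p ∣ Nat.card A ∧
      (∃ k : ℕ, A.relIndex B = p ^ k) ∧ ¬ p ∣ B.relIndex C ∧ ∃ k : ℕ, C.index = p ^ k := by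
  set A := pPrimeCore p G
  set π := QuotientGroup.mk' A
  have hπ := QuotientGroup.mk'_surjective A
  have h := hasNormalPComplement_quotient_pCore (L.isPSolvable_quotient hG A)
    (L.pPrimeCore_quotient p) fun M hM => (hmax _ (isCoatom_comap_of_surjective hπ hM)).imp
      (fun ⟨K, _, h1, k, h2⟩ => H1.hasNormalPComplement_of_surjective (π.subgroupComap M)
        (π.subgroupComap_surjective_of_surjective M hπ)
        (H1.hasNormalPComplement_of_normal h1 (IsPGroup.of_card h2)))
      fun h => index_comap_of_surjective M hπ ▸ h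
  set R := pCore p (G ⧸ A)
  obtain ⟨P, K, _, hK⟩ := h
  refine ⟨A, R.comap π, (K.comap (QuotientGroup.mk' R)).comap π, inferInstance, inferInstance,
    inferInstance, L.le_comap_mk' _ _, comap_mono (L.le_comap_mk' _ _),
    hp.out.coprime_iff_not_dvd.mp (L.pPrimeCore_coprime p).symm, ?_, ?_, ?_⟩
  · rw [L.relIndex_comap_mk']
    exact (L.pCore_isPGroup p).exists_card_eq
  · rw [relIndex_comap, map_comap_eq_self_of_surjective hπ, L.relIndex_comap_mk',
      ← hK.index_eq_card]
    exact P.not_dvd_index
  · rw [index_comap_of_surjective _ hπ, index_comap_of_surjective _ (QuotientGroup.mk'_surjective R),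
      hK.symm.index_eq_card]
    exact P.isPGroup'.exists_card_eq

end Cfsg.Agent.H2
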