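import Cfsg.Agent.H1.Dickson
import Cfsg.Agent.H2.Coprime
import Cfsg.Agent.L.PSolv

/-! Quadratic action on the Fitting subgroup of a solvable group. -/

set_option autoImplicit false

namespace Cfsg.Agent.H2

open Subgroup Matrix
open scoped commutatorElement MatrixGroups

universe u

theorem not_isSolvable_SL2 {p : ℕ} [hp : Fact p.Prime] (h3 : 3 < p) :
    ¬ Group.IsSolvable SL(2, ZMod p) := by
  intro h
  have h1 : commutator SL(2, ZMod p) = ⊤ := Matrix.SL2.commutator_eq_top (a := 2) (by
    intro h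
    have := (ZMod.natCast_eq_zero_iff 2 p).mp (by exact_mod_cast h)
    have := Nat.le_of_dvd two_pos this
    omega) (by
    intro h
    have h2 : ((3 : ℕ) : ZMod p) = 0 := by push_cast; linear_combination h
    have := Nat.le_of_dvd three_pos ((ZMod.natCast_eq_zero_iff 3 p).mp h2)
    omega)
  have : Nontrivial SL(2, ZMod p) := ⟨⟨1, ⟨!![1, 1; 0, 1], by simp [det_fin_two]⟩, fun h => by
    have := congrArg (fun M : SL(2, ZMod p) => M.1 0 1) h
    simp at this⟩⟩
  exact (Group.IsSolvable.commutator_lt_top_of_nontrivial SL(2, ZMod p)).ne h1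

variable {G : Type u} [Group G] [Finite G]

theorem not_hasSL2Section_of_solvable {p : ℕ} [hp : Fact p.Prime] (h3 : 3 < p) {W X : Subgroup G}
    (hX : Group.IsSolvable X) : ¬ H1.HasSL2Section p W X := by
  intro h
  obtain ⟨-, H, ρ, -, -, hH, -, hρ, -⟩ := h.exists_hom
  have := isSolvable_of_le (hH.trans inf_le_left) hX
  exact not_isSolvable_SL2 h3 (Group.isSolvable_of_surjective hρ)

/-- A `p`-element acting quadratically on `O_p(G)` and centralizing the other cores lies in
`O_p(G)`, when `G` is solvable and has no `SL₂(p)` section on `O_p(G)`. -/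
theorem mem_pCore_of_quadratic_of_centralizes [Group.IsSolvable G] {p : ℕ} [hp : Fact p.Prime]
    (hp2 : p ≠ 2) (hst : ∀ W ≤ pCore p G, ¬ H1.HasSL2Section p W ⊤) {a : G}
    (ha : IsPGroup p (zpowers a))
    (h1 : ∀ x ∈ pCore p G, ⁅⁅x, a⁆, a⁆ = 1)
    (h2 : ∀ q : ℕ, q.Prime → q ≠ p → a ∈ centralizer (pCore q G : Set G)) : a ∈ pCore p G := by
  set B := pCore p G with hB
  have hBp : IsPGroup p B := L.pCore_isPGroup p
  set F' := ⨆ q : {q : ℕ // q.Prime ∧ q ≠ p}, pCore q G with hF'
  have hF : fittingSubgroup G ≤ B ⊔ F' := by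
    rw [L.fitting_eq_iSup_pCore]
    refine iSup_le fun q => ?_
    by_cases h : (q : ℕ) = p
    · rw [h]; exact le_sup_left
    · exact le_sup_of_le_right (le_iSup (fun q : {q : ℕ // q.Prime ∧ q ≠ p} => pCore q G)
        ⟨q, q.2, h⟩)
  set f := QuotientGroup.mk' (centralizer (B : Set G)) with hf
  set N := (pCore p _).comap f ⊓ centralizer (F' : Set G) with hN
  have haN : a ∈ N := mem_inf.mpr ⟨H1.mem_pCore_of_quadratic hp2 hBp hst h1,
    zpowers_le.mp (le_centralizer_iff.mp (iSup_le fun q => le_centralizer_iff.mp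
      (zpowers_le.mpr (h2 q q.2.1 q.2.2))))⟩
  obtain ⟨P, haP, hPN, hP, hP'⟩ := exists_sylow_le ha (zpowers_le.mpr haN)
  have hBN : B ≤ N := by
    refine le_inf (map_le_iff_le_comap.mp ?_) (le_centralizer_iff.mp (iSup_le fun q => ?_))
    · have : (B.map f).Normal := Normal.map inferInstance f (QuotientGroup.mk'_surjective _)
      exact L.le_pCore (hBp.map f)
    · have : Fact (q : ℕ).Prime := ⟨q.2.1⟩
      exact commutator_eq_bot_iff_le_centralizer.mp (L.commutator_eq_bot_of_coprime
        le_normalizer_of_normal le_normalizer_of_normal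
        (IsPGroup.coprime_card_of_ne _ _ q.2.2 _ _ (L.pCore_isPGroup _) hBp))
  have hBP : B ≤ P := le_sup_right.trans (eq_of_le_of_not_dvd_relIndex
    (hP.to_sup_of_normal_right hBp) (sup_le hPN hBN) le_sup_left hP').le
  have hFP : fittingSubgroup G ≤ normalizer (P : Set G) := hF.trans (sup_le
    (hBP.trans le_normalizer)
    (le_normalizer_of_le_centralizer (le_centralizer_iff.mp (hPN.trans inf_le_right))))
  have hNP : N ≤ normalizer (P : Set G) := by
    refine le_of_forall_prime_exists fun q hq _ => ?_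
    by_cases h : q = p
    · exact ⟨P, hPN, h ▸ hP', le_normalizer⟩
    · have : Fact q.Prime := ⟨hq⟩
      obtain ⟨Q, -, hQN, hQ, hQ'⟩ := exists_sylow_le (p := q) (K := N) IsPGroup.of_bot bot_le
      refine ⟨Q, hQN, hQ', le_trans ?_ (L.centralizer_fitting_le.trans hFP)⟩
      have h3 : Q.map f = ⊥ := L.eq_bot_of_isPGroup_of_coprime ((L.pCore_isPGroup p).to_le
        (map_le_iff_le_comap.mpr (hQN.trans inf_le_left))) (L.coprime_of_isPGroup_ne h (hQ.map f))
      rw [Subgroup.map_eq_bot_iff, QuotientGroup.ker_mk'] at h3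
      exact le_centralizer_iff.mp (hF.trans (sup_le (le_centralizer_iff.mp h3)
        (le_centralizer_iff.mp (hQN.trans inf_le_right))))
  exact L.le_pCore_of_isSubnormal (L.SN.top_iff.mp (L.SN.of_normal.trans
    (L.SN.of_le_normalizer hPN hNP))) hP (haP (mem_zpowers a))

/-- In a solvable group with `O₂ = O₃ = 1` a subgroup acting quadratically on the Fitting
subgroup lies in it. -/
theorem le_fitting_of_quadratic [Group.IsSolvable G] (h2 : pCore 2 G = ⊥) (h3 : pCore 3 G = ⊥)
    {X : Subgroup G} (h : ⁅⁅fittingSubgroup G, X⁆, X⁆ = ⊥) : X ≤ fittingSubgroup G := by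
  refine le_of_forall_prime_exists fun p hp _ => ?_
  have : Fact p.Prime := ⟨hp⟩
  obtain ⟨P, -, hPX, hP, hP'⟩ := exists_sylow_le (p := p) (K := X) IsPGroup.of_bot bot_le
  refine ⟨P, hPX, hP', fun a ha => ?_⟩
  have ha' : IsPGroup p (zpowers a) := hP.to_le (zpowers_le.mpr ha)
  have hq : ∀ x ∈ fittingSubgroup G, ⁅⁅x, a⁆, a⁆ = 1 := fun x hx => mem_bot.mp
    (h ▸ commutator_mem_commutator (commutator_mem_commutator hx (hPX ha)) (hPX ha))
  have h4 : ∀ q : ℕ, q.Prime → q ≠ p → a ∈ centralizer (pCore q G : Set G) := fun q hq' hne => by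
    have : Fact q.Prime := ⟨hq'⟩
    refine H1.mem_centralizer_of_coprime_of_commutator (L.pCore_isPGroup q)
      (le_normalizer_of_normal (mem_top a)) ?_ fun x hx =>
        (commutatorElement_eq_one_iff_commute.mp (hq x (L.pCore_le_fitting q hx))).symm
    rw [← Nat.card_zpowers]
    exact L.coprime_of_isPGroup_ne hne.symm ha'
  by_cases h5 : 3 < p
  · exact L.pCore_le_fitting p (mem_pCore_of_quadratic_of_centralizes (by omega)
      (fun W _ => not_hasSL2Section_of_solvable h5 inferInstance) ha'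
      (fun x hx => hq x (L.pCore_le_fitting p hx)) h4)
  · apply L.centralizer_fitting_le
    rw [L.fitting_eq_iSup_pCore]
    refine zpowers_le.mp (le_centralizer_iff.mp (iSup_le fun q => ?_))
    by_cases hqp : (q : ℕ) = p
    · have := hp.two_le
      have : p = 2 ∨ p = 3 := by omega
      rcases this with rfl | rfl
      · rw [hqp, h2]; exact bot_le
      · rw [hqp, h3]; exact bot_le
    · exact le_centralizer_iff.mp (zpowers_le.mpr (h4 q q.2 hqp))

end Cfsg.Agent.H2
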